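import Cfsg.Agent.H332.TC.D42
import Cfsg.Agent.H210.TC.Row

/-!
# S2452, row `³D₄(2)`: helper332's class of elements of order 7 in the form `Row3` (helper880)
-/

set_option autoImplicit false

namespace Cfsg.Agent.H880.TW

open Cfsg.Agent.H347.HX.D42 Cfsg.Agent.H332.TC.D42

/-- **`³D₄(2)`**: one class of elements of order 7 -/
theorem row3_td4_two {F : Type*} [Field F] [Fintype F] (hF : Fintype.card F = 2 ^ 3) :
    Cfsg.Agent.H210.TC.Row3 ↥(Lie.twistedD4 F 2) := by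
  obtain ⟨φ⟩ := iso F (by rw [hF]; norm_num)
  obtain ⟨x, hx, h⟩ := all_K
  refine Cfsg.Agent.H210.TC.Row3.of_equiv φ.symm
    (Cfsg.Agent.H210.TC.Row3.of_sq (x := x) ?_ ?_ h)
  · rw [hx]; norm_num
  · rw [hx]; norm_num

end Cfsg.Agent.H880.TW
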